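import Cfsg.Agent.H887.D3.Fields5
import Cfsg.Agent.H833.TenFive.Par
import Cfsg.Agent.KFacts.RgdEx

/-!
# `PSU_5(q)` in dimension 10: the vectors and the form (helper587)

`Dt`: the data of the module `Λ²` of `SU_5(q)` (twisted) with its hermitian form. `exists_dt`.
-/

set_option autoImplicit false
set_option linter.unusedSectionVars false
set_option linter.style.haveILetI false

namespace Cfsg.Agent.H587.UF

open CoxeterSystem Cfsg.Agent.ChevalleyStructure.CoxeterGeom Cfsg.Agent.Tits.Roots Cfsg.Agent.Nodes.TypeC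
open Cfsg.Agent.Nodes.Comb Cfsg.Agent.Nodes.Reps Cfsg.Agent.Nodes.WittRoot Cfsg.Agent.Nodes.BNOf
open Cfsg.Agent.Nodes.WittRGD Cfsg.Agent.Nodes.RGDLib Cfsg.Agent.Nodes.WittAll Cfsg.Agent.Nodes
open Cfsg.Agent.TitsThree Cfsg.Agent.TitsThree.Siegel Cfsg.Agent.TitsThree.WittFrame
  Cfsg.Agent.TitsThree.WittWeyl Cfsg.Agent.TitsThree.FrameCN Cfsg.Agent.H905.Md
  Cfsg.Agent.Nodes.StabComb Cfsg.Agent.Tits.Core
open Cfsg Cfsg.Geo Cfsg.Agent.H876.D3 Cfsg.Agent.H911 Cfsg.Agent.H915.LD Cfsg.Agent.H887.D3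
open LieClassical.HermBasic LieClassical.HermSiegel Cfsg.Agent.TitsThree.KSideU Cfsg.Agent.TitsThree.KSideUDesc
  Cfsg.Agent.Nodes.WittU Cfsg.Agent.TitsThree.WBridge Cfsg.Agent.TitsThree.SiegelGen Cfsg.Agent.H61.SUCross
  Cfsg.Agent.H61.SUNode
open Cfsg.Agent.KFacts.MulOdd.Inst (Lv)
open Cfsg.Agent.Omega.CR Cfsg.Agent.Omega.FOne.Lift.Sd Cfsg.Agent.Nodes.Bruhat Cfsg.Agent.Nodes.OppDec
open Cfsg.Agent.KFacts.RgdOpp
open Cfsg.Agent.H151.D3 (exists_emb exists_kind')
open scoped MatrixGroups Matrix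

section uniq

variable {I W Y : Type*} [Fintype I] [DecidableEq I] [Group W] [Group Y] {M : CoxeterMatrix I}
  {cs : CoxeterSystem M W} {A : I → I → ℤ} {h : IsCartan M A} {p : ℕ} {T : Subgroup Y} {n : I → Y}
  {X : (I → ℤ) → Subgroup Y} {k V : Type*} [Field k] [AddCommGroup V] [Module k V]

/-- the functionals fixed by `U⁻` -/
theorem fx_dual_unique (R : RGD cs h p T n X) [Finite Y] [Finite W] [Fact p.Prime] [CharP k p] [IsAlgClosed k]
    [FiniteDimensional k V] [Nontrivial V] {ρ : Y →* Module.End k V}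
    (hirr : ∀ L : Submodule k V, Ivt ρ (GG cs h T X) L → L = ⊥ ∨ L = ⊤)
    (hT : ∀ s ∈ T, ∀ t ∈ T, s * t = t * s) {φ ψ : Module.Dual k V} (hφ : φ ∈ fx (dualRep ρ) (UN cs h X)) (hφ0 : φ ≠ 0)
    (hψ : ψ ∈ fx (dualRep ρ) (UN cs h X)) : ∃ c : k, ψ = c • φ := by
  have h1 : Module.finrank k (fx (dualRep ρ) (UN cs h X)) = 1 := by
    rw [← D_opp]
    exact finrank_D (opp R) (ρ := dualRep ρ) (hirr_opp R hirr) hT
  obtain ⟨c, hc⟩ := (finrank_eq_one_iff_of_nonzero' (⟨φ, hφ⟩ : fx (dualRep ρ) (UN cs h X))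
    (fun e => hφ0 (congrArg Subtype.val e))).1 h1 ⟨ψ, hψ⟩
  exact ⟨c, (congrArg Subtype.val hc).symm⟩

end uniq

section

variable {F : Type} [Field F] [Fintype F] {q : ℕ}

/-- the second minor -/
def G2 (q : ℕ) (x0 x1 y0 y1 : Fin 5 → F) : F :=
  hermForm 5 F q x0 y0 * hermForm 5 F q x1 y1 - hermForm 5 F q x0 y1 * hermForm 5 F q x1 y0

theorem G2_swap (hK : Fintype.card F = q ^ 2) (x0 x1 y0 y1 : Fin 5 → F) :
    G2 q y0 y1 x0 x1 = G2 q x0 x1 y0 y1 ^ q := by
  unfold G2
  rw [sub_pow_q hK, mul_pow, mul_pow, ← herm_swap hK, ← herm_swap hK, ← herm_swap hK, ← herm_swap hK]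
  ring

theorem G2_smul (a : F) (x0 x1 y0 y1 : Fin 5 → F) : G2 q (a • x0) x1 y0 y1 = a * G2 q x0 x1 y0 y1 := by
  unfold G2
  rw [herm_smul_left, herm_smul_left]
  ring

theorem G2_smul_right (a : F) (x0 x1 y0 y1 : Fin 5 → F) : G2 q x0 x1 (a • y0) y1 = a ^ q * G2 q x0 x1 y0 y1 := by
  unfold G2
  rw [herm_smul_right, herm_smul_right]
  ring

theorem G2_act (g : SU 5 F q) (x0 x1 y0 y1 : Fin 5 → F) :
    G2 q (act g x0) (act g x1) y0 y1 = G2 q x0 x1 (act g⁻¹ y0) (act g⁻¹ y1) := by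
  unfold G2
  rw [herm_act_left, herm_act_left, herm_act_left, herm_act_left]

/-- the data of the module of dimension `10` -/
structure Dt (q : ℕ) (p : ℕ) (e0 e1 f0 f1 : Fin 5 → F) (φ : SU 5 F q →* GL (Fin 10) F) (w : Fin 10 → F)
    {k : Type} [Field k] (al J : F →+* k) (κ : k) (U : Subgroup (SU 5 F q)) : Prop where
  ee : ∀ x ∈ ({e0, e1} : Set (Fin 5 → F)), ∀ y ∈ ({e0, e1} : Set (Fin 5 → F)), hermForm 5 F q x y = 0
  ff : ∀ x ∈ ({f0, f1} : Set (Fin 5 → F)), ∀ y ∈ ({f0, f1} : Set (Fin 5 → F)), hermForm 5 F q x y = 0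
  ef00 : hermForm 5 F q e0 f0 = 1
  ef11 : hermForm 5 F q e1 f1 = 1
  ef01 : hermForm 5 F q e0 f1 = 0
  ef10 : hermForm 5 F q e1 f0 = 0
  w0 : w ≠ 0
  κ0 : κ ≠ 0
  ker : ∀ g g' : SU 5 F q, al (hermForm 10 F q ((φ g : Matrix _ _ F) *ᵥ w) ((φ g' : Matrix _ _ F) *ᵥ w)) =
    κ * J (G2 q (act g e0) (act g e1) (act g' e0) (act g' e1))
  fixU : ∀ u ∈ U, (φ u : Matrix _ _ F) *ᵥ w = w
  maxU : H833.TenFive.MaxP p U
  tor : ∀ x : F, x ≠ 0 → ∃ t : SU 5 F q, (∀ u ∈ U, t * u * t⁻¹ ∈ U) ∧ ∃ a : F, al a = J x ∧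
    (φ t : Matrix _ _ F) *ᵥ w = a • w
  frame : ∀ x0 x1 : Fin 5 → F, hermForm 5 F q x0 x0 = 0 → hermForm 5 F q x0 x1 = 0 → hermForm 5 F q x1 x1 = 0 →
    (∀ a b : F, a • x0 + b • x1 = 0 → a = 0 ∧ b = 0) → ∃ (g : SU 5 F q) (c : F), c ≠ 0 ∧ act g e0 = c • x0 ∧
      act g e1 = x1

end

section main

variable {F : Type} [Field F] [Fintype F] {q : ℕ}

/-- the representation over the algebraic closure on the vectors over `F` -/
theorem lin_al {Y : Type} [Group Y] (φ : Y →* GL (Fin 10) F) (y : Y) (x : Fin 10 → F) :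
    lin (acRep φ) y (fun i => algebraMap F (AlgebraicClosure F) (x i)) =
      fun i => algebraMap F (AlgebraicClosure F) (((φ y : Matrix _ _ F) *ᵥ x) i) := by
  rw [lin_apply, acRep_apply]
  funext i
  exact (RingHom.map_mulVec (algebraMap F (AlgebraicClosure F)) (φ y : Matrix (Fin 10) (Fin 10) F) x i).symm

/-- the functional of a vector -/
noncomputable def fl (q : ℕ) (z : Fin 10 → F) : Module.Dual (AlgebraicClosure F) (Fin 10 → AlgebraicClosure F) where
  toFun x := ∑ i, x i * algebraMap F (AlgebraicClosure F) (z i ^ q)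
  map_add' x y := by simp only [Pi.add_apply, add_mul, Finset.sum_add_distrib]
  map_smul' c x := by simp only [Pi.smul_apply, smul_eq_mul, mul_assoc, Finset.mul_sum, RingHom.id_apply]

theorem fl_al (z x : Fin 10 → F) : fl q z (fun i => algebraMap F (AlgebraicClosure F) (x i)) =
    algebraMap F (AlgebraicClosure F) (hermForm 10 F q x z) := by
  change ∑ i, algebraMap F (AlgebraicClosure F) (x i) * algebraMap F (AlgebraicClosure F) (z i ^ q) = _
  unfold hermForm
  rw [map_sum]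
  exact Finset.sum_congr rfl fun i _ => (map_mul _ _ _).symm

theorem gu_herm {n : ℕ} {g : GL (Fin n) F} (hg : g ∈ GU n F q) (x y : Fin n → F) :
    hermForm n F q ((g : Matrix _ _ F) *ᵥ x) ((g : Matrix _ _ F) *ᵥ y) = hermForm n F q x y := hg x y

theorem fl_fix {Y : Type} [Group Y] {φ : Y →* GL (Fin 10) F} (hU : φ.range ≤ GU 10 F q) {z : Fin 10 → F} {y : Y}
    (hz : (φ y⁻¹ : Matrix _ _ F) *ᵥ z = z) (x : Fin 10 → AlgebraicClosure F) :
    fl q z (lin (acRep φ) y x) = fl q z x := by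
  have h1 : (fl q z).comp (lin (acRep φ) y) = fl q z := by
    refine (Pi.basisFun (AlgebraicClosure F) (Fin 10)).ext fun l => ?_
    rw [Pi.basisFun_apply]
    have e1 : (Pi.single l 1 : Fin 10 → AlgebraicClosure F) =
        fun i => algebraMap F (AlgebraicClosure F) ((Pi.single l 1 : Fin 10 → F) i) := by
      funext i
      by_cases h : i = l
      · subst h; simp
      · simp [h]
    rw [LinearMap.comp_apply, e1, lin_al, fl_al, fl_al]
    congr 1
    have h2 : (φ y : GL (Fin 10) F) ∈ GU 10 F q := hU ⟨y, rfl⟩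
    have h3 := gu_herm h2 (Pi.single l 1 : Fin 10 → F) z
    have h4 : (φ y : Matrix _ _ F) *ᵥ z = z := by
      conv_lhs => rw [← hz]
      rw [Matrix.mulVec_mulVec, ← Units.val_mul, ← map_mul, mul_inv_cancel, map_one, Units.val_one, Matrix.one_mulVec]
    rw [h4] at h3
    exact h3
  exact DFunLike.congr_fun h1 x

/-- **The module.** -/
theorem exists_dt {P : Subgroup (GL (Fin 10) F)} (hK : Fintype.card F = q ^ 2) (hC : Core P)
    (Φ : Soc P ≃* PSU 5 F q) (hU : P ≤ GU 10 F q) (p : ℕ) [Fact p.Prime] [CharP F p] :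
    ∃ (e0 e1 f0 f1 : Fin 5 → F) (φ : SU 5 F q →* GL (Fin 10) F) (w : Fin 10 → F)
      (k : Type) (_ : Field k) (al J : F →+* k) (κ : k) (U : Subgroup (SU 5 F q)),
      φ.range = P ∧ Dt q p e0 e1 f0 f1 φ w al J κ U := by
  classical
  have hN3 : 3 ≤ 5 := by norm_num
  have hm0 : 0 < 2 := by norm_num
  obtain ⟨m, W, hm, hW, hev, hodd⟩ := exists_kind' (N := 5) hK (by norm_num)
  have hV0 : W.V0 ≠ ⊥ := by
    intro h
    have := hev h
    omega
  obtain rfl : m = 2 := by
    have := hodd hV0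
    omega
  obtain ⟨φ, hφ, -, -⟩ := psu_cover p hC.perfect hN3 hK (by omega) Φ
  haveI hchar : CharP (AlgebraicClosure F) p := charP_of_injective_algebraMap (algebraMap F _).injective p
  haveI hexp : ExpChar (AlgebraicClosure F) p := ExpChar.prime Fact.out
  obtain ⟨j⟩ := exists_emb p F (AlgebraicClosure F)
  obtain ⟨p0, hp0, -⟩ := exists_adm hK W
  have hA : AmbT (toFrame W) p (modelSU hK hN3 W).I := AmbT.of_amb (amb_U hK W) p
  haveI : Finite (CoxeterMatrix.B 2).Group := finite_W (CoxeterMatrix.B 2).toCoxeterSystem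
  have R := rgdC_model (modelSU hK hN3 W) hA hp0 (CoxeterMatrix.B 2).toCoxeterSystem
  have hG : GG (CoxeterMatrix.B 2).toCoxeterSystem (isCartan 2) (WittModel.T (modelSU hK hN3 W))
      (WittModel.X (modelSU hK hN3 W)) = ⊤ := gg_top (WittModel.G1_eq_top _ hm0 _)
  have hT := modelT_comm (M := modelSU hK hN3 W) hA (kd_su hW)
  have hirr := ac_irr R hG hT hφ hC.absIrred
  have hirr' : ∀ L : Submodule (AlgebraicClosure F) (Fin 10 → AlgebraicClosure F), Ivt (lin (acRep φ)) ⊤ L →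
      L = ⊥ ∨ L = ⊤ := by
    intro L hL
    exact hirr L (by rw [hG]; exact hL)
  obtain ⟨J, θ, hB, hJ, v, ψ, hv0, hv, hvT, hψ⟩ := exists_coef hN3 p hW hm0 j (lin (acRep φ)) hirr'
  have hfr : Module.finrank (AlgebraicClosure F) (Fin 10 → AlgebraicClosure F) = 10 := by
    rw [Module.finrank_fintype_fun_eq_card, Fintype.card_fin]
  have hker : ∀ r, r ≤ 2 → 0 < r → (∀ i : Fin 2, r ≤ (i : ℕ) → θ i = 0) →
        ∃ (vv : (Fin 2 → Fin 5 → F) → (Fin 10 → AlgebraicClosure F))
          (ff : (Fin 2 → Fin 5 → F) → Module.Dual (AlgebraicClosure F) (Fin 10 → AlgebraicClosure F)),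
          IsKer q r j θ vv ff := fun r hr hr0 hθ => isKer_of_coef hirr' hv0 hψ hr hr0 hθ
  -- the exponents
  obtain ⟨a, ha0, ha1⟩ : ∃ a, θ 0 = 0 ∧ θ 1 = p ^ a := by
    have h1 := dims2 p (by norm_num) hm W hev hodd hB (hJ (by rw [hfr]; norm_num)) hker (fun _ h1 hθ vv ff h =>
      H991.D3.node1_five_pow p hm W hV0 h hθ h1 (hB.le _))
    rw [hfr] at h1
    rcases h1 with ⟨i, hi, -, ⟨⟨a, ha⟩, -⟩ | ⟨-, h2, -⟩⟩ | ⟨h2, -⟩ | h2
    · rw [one_mul] at ha
      fin_cases i
      · exfalso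
        have hθ : ∀ i : Fin 2, 1 ≤ (i : ℕ) → θ i = 0 := fun i' h1 => hi i' (by
          rintro rfl
          simp at h1)
        obtain ⟨vv, ff, h⟩ := hker 1 (by norm_num) (by norm_num) hθ
        have h3 := natural p (by norm_num) W h hθ ha
        rw [hfr] at h3
        omega
      · exact ⟨a, hi 0 (by decide), ha⟩
    · omega
    · omega
    · omega
  let J' : F →+* AlgebraicClosure F := (iterateFrobenius (AlgebraicClosure F) p a).comp j
  have hcf : ∀ g, cf W j θ g = J' (dl W 1 g) := by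
    intro g
    rw [cf_single (i := (1 : Fin 2)) j (fun i' h => by
      have : i' = 0 := by omega
      rw [this, ha0]) g, ha1]
    rfl
  have hleft : ∀ u ∈ UN (CoxeterMatrix.B 2).toCoxeterSystem (isCartan 2) (WittModel.X (modelSU hK hN3 W)),
      ∀ i, ∀ g, dl W i (u * g) = dl W i g := by
    intro u hu i
    let S : Subgroup (SU 5 F q) := (KD (toFrame W) false i).comap (toLin F q 5)
    have h1 : UN (CoxeterMatrix.B 2).toCoxeterSystem (isCartan 2) (WittModel.X (modelSU hK hN3 W)) ≤ S := by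
      refine RGD.Sup_le fun x hx => ?_
      intro u hu
      rw [X_eq] at hu
      exact rg_le_KD (Fr := toFrame W) (s := false) hx.1 (by simpa [sgn] using hx.2 i) hu
    intro g
    unfold dl
    rw [map_mul]
    exact Dl_mul_left rfl (iso_toLin g) (iso_toLin u) (h1 hu)
  have hD : ∀ g g' : SU 5 F q, dl W 1 (g'⁻¹ * g) =
      G2 q (act g (W.e 0)) (act g (W.e 1)) (act g' (W.f 0)) (act g' (W.f 1)) := by
    intro g g'
    rw [dl_eq]
    exact Gr_one (m := 2) le_rfl _ _
  have hD1 : ∀ g : SU 5 F q, dl W 1 g = G2 q (act g (W.e 0)) (act g (W.e 1)) (W.f 0) (W.f 1) := by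
    intro g
    have := hD g 1
    rwa [inv_one, one_mul, act_one, act_one] at this
  obtain ⟨n0, c, hc, hn0⟩ := exists_su W (r := 2) le_rfl (by norm_num) (u := W.f) (by
    have := pfr_act W 2 false 1
    simp only [act_one] at this
    exact this) true
  have hn0a : act n0 (W.e 0) = c • W.f 0 := by
    have := hn0 0 (by norm_num)
    rwa [if_pos (by simp)] at this
  have hn0b : act n0 (W.e 1) = W.f 1 := by
    have := hn0 1 (by norm_num)
    rwa [if_neg (by simp), one_smul] at this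
  -- separation
  have hsep : ∀ x, (∀ g, ψ (lin (acRep φ) g x) = 0) → x = 0 := by
    intro x hx
    let L : Submodule (AlgebraicClosure F) (Fin 10 → AlgebraicClosure F) :=
      { carrier := {w | ∀ g, ψ (lin (acRep φ) g w) = 0}
        zero_mem' := fun g => by rw [map_zero, map_zero]
        add_mem' := fun {a b} ha hb g => by rw [map_add, map_add, ha g, hb g, add_zero]
        smul_mem' := fun c a ha g => by rw [map_smul, map_smul, ha g, smul_zero] }
    have h1 := hirr' L (by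
      intro x _ w hw g
      rw [← rho_mul]
      exact hw _)
    rcases h1 with h1 | h1
    · have h2 : x ∈ L := hx
      rwa [h1, Submodule.mem_bot] at h2
    · exfalso
      have h2 : v ∈ L := by rw [h1]; trivial
      have h3 : ψ (lin (acRep φ) 1 v) = 0 := h2 1
      rw [hψ, hcf, dl_one, map_one] at h3
      exact one_ne_zero h3
  have hlin : ∀ (y : SU 5 F q) (b : F), (∀ g, dl W 1 (g * y) = b * dl W 1 g) → lin (acRep φ) y v = J' b • v := by
    intro y b h
    rw [← sub_eq_zero]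
    refine hsep _ fun g => ?_
    rw [map_sub, map_sub, map_smul, map_smul, ← rho_mul, hψ, hψ, hcf, hcf, h, map_mul, smul_eq_mul, sub_self]
  -- the fixed vector
  obtain ⟨w, hw0, hw⟩ := exists_fixed_vec R hG hφ hC.absIrred
  have hspan := fx_eq_span R (lin (acRep φ)) hirr hv hv0 hvT
  have hwk : (fun i => algebraMap F (AlgebraicClosure F) (w i)) ∈ fx (lin (acRep φ))
      (RGD.Sup (WittModel.X (modelSU hK hN3 W)) (RGD.Pos (CoxeterMatrix.B 2).toCoxeterSystem (isCartan 2))) := by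
    intro u hu
    rw [lin_al, hw u hu]
  rw [hspan] at hwk
  obtain ⟨μ, hμ⟩ := Submodule.mem_span_singleton.1 hwk
  have hwk0 : (fun i => algebraMap F (AlgebraicClosure F) (w i)) ≠ 0 := by
    intro h
    apply hw0
    funext i
    have := congrFun h i
    exact (map_eq_zero _).1 this
  have hμ0 : μ ≠ 0 := by
    rintro rfl
    rw [zero_smul] at hμ
    exact hwk0 hμ.symm
  have hlinw : ∀ (y : SU 5 F q) (b : F), (∀ g, dl W 1 (g * y) = b * dl W 1 g) →
      (fun i => algebraMap F (AlgebraicClosure F) (((φ y : Matrix _ _ F) *ᵥ w) i)) =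
        J' b • fun i => algebraMap F (AlgebraicClosure F) (w i) := by
    intro y b h
    rw [← lin_al, ← hμ, map_smul, hlin y b h, smul_comm]
  have hmv : ∀ (g g' : SU 5 F q) (x : Fin 10 → F), (φ (g * g') : Matrix (Fin 10) (Fin 10) F) *ᵥ x =
      (φ g : Matrix (Fin 10) (Fin 10) F) *ᵥ ((φ g' : Matrix (Fin 10) (Fin 10) F) *ᵥ x) := by
    intro g g' x
    rw [Matrix.mulVec_mulVec, ← Units.val_mul, ← map_mul]
  have hUG : ∀ g : SU 5 F q, φ g ∈ GU 10 F q := fun g => hU (by rw [← hφ]; exact ⟨g, rfl⟩)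
  -- the element `n0`
  set z0 : Fin 10 → F := (φ n0 : Matrix _ _ F) *ᵥ w with hz0
  have hfe0 : ∀ g : SU 5 F q, act g (W.f 0) = c⁻¹ • act (g * n0) (W.e 0) := by
    intro g
    rw [act_mul, hn0a, act_smul, smul_smul, inv_mul_cancel₀ hc, one_smul]
  have hfe1 : ∀ g : SU 5 F q, act g (W.f 1) = act (g * n0) (W.e 1) := by
    intro g
    rw [act_mul, hn0b]
  have hzfix : ∀ u ∈ UN (CoxeterMatrix.B 2).toCoxeterSystem (isCartan 2) (WittModel.X (modelSU hK hN3 W)),
      (φ u : Matrix _ _ F) *ᵥ z0 = z0 := by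
    intro u hu
    have key : ∀ z : SU 5 F q, G2 q (act z (W.f 0)) (act z (W.f 1)) (act u (W.f 0)) (act u (W.f 1)) =
        G2 q (act z (W.f 0)) (act z (W.f 1)) (W.f 0) (W.f 1) := by
      intro z
      rw [hfe0 z, hfe1 z, G2_smul, G2_smul, ← hD (z * n0) u, hleft u⁻¹ (inv_mem hu), hD1]
    have h1 : ∀ g, dl W 1 (g * (n0⁻¹ * u * n0)) = 1 * dl W 1 g := by
      intro g
      have e0 : act (g * (n0⁻¹ * u * n0)) (W.e 0) = c • act (g * n0⁻¹) (act u (W.f 0)) := by
        rw [show g * (n0⁻¹ * u * n0) = (g * n0⁻¹) * (u * n0) by group, act_mul (g * n0⁻¹), act_mul u, hn0a, act_smul,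
          act_smul]
      have e1 : act (g * (n0⁻¹ * u * n0)) (W.e 1) = act (g * n0⁻¹) (act u (W.f 1)) := by
        rw [show g * (n0⁻¹ * u * n0) = (g * n0⁻¹) * (u * n0) by group, act_mul (g * n0⁻¹), act_mul u, hn0b]
      have e2 : act g (W.e 0) = c • act (g * n0⁻¹) (W.f 0) := by
        rw [hfe0, inv_mul_cancel_right, smul_smul, mul_inv_cancel₀ hc, one_smul]
      have e3 : act g (W.e 1) = act (g * n0⁻¹) (W.f 1) := by
        rw [hfe1, inv_mul_cancel_right]
      rw [one_mul, hD1, hD1 g, e0, e1, e2, e3, G2_smul, G2_smul, G2_act (g * n0⁻¹) (act u (W.f 0)) (act u (W.f 1)),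
        G2_act (g * n0⁻¹) (W.f 0) (W.f 1), G2_swap hK _ _ (act u (W.f 0)) (act u (W.f 1)), key, ← G2_swap hK]
    have h2 := hlinw _ 1 h1
    rw [map_one, one_smul] at h2
    have h3 : (φ (n0⁻¹ * u * n0) : Matrix _ _ F) *ᵥ w = w := by
      funext i
      exact (algebraMap F (AlgebraicClosure F)).injective (congrFun h2 i)
    rw [hz0, ← hmv, show u * n0 = n0 * (n0⁻¹ * u * n0) by group, hmv, h3]
  -- the functionals
  have hspan' : ∀ L : Submodule (AlgebraicClosure F) (Fin 10 → AlgebraicClosure F),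
      (∀ g, lin (acRep φ) g v ∈ L) → L = ⊤ := by
    intro L hL
    have h1 := hirr' (Submodule.span (AlgebraicClosure F) (Set.range fun g => lin (acRep φ) g v)) (by
      intro x _ w hw
      induction hw using Submodule.span_induction with
      | mem w hw =>
        obtain ⟨g, rfl⟩ := hw
        refine Submodule.subset_span ⟨x * g, ?_⟩
        exact rho_mul _ x g v
      | zero => rw [map_zero]; exact zero_mem _
      | add a b _ _ ha hb => rw [map_add]; exact add_mem ha hb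
      | smul a b _ hb => rw [map_smul]; exact Submodule.smul_mem _ _ hb)
    rcases h1 with h1 | h1
    · exfalso
      apply hv0
      have h2 : lin (acRep φ) 1 v ∈ Submodule.span (AlgebraicClosure F) (Set.range fun g => lin (acRep φ) g v) :=
        Submodule.subset_span ⟨1, rfl⟩
      rwa [h1, Submodule.mem_bot, rho_one] at h2
    · rw [eq_top_iff, ← h1, Submodule.span_le]
      rintro _ ⟨g, rfl⟩
      exact hL g
  have hψU : ψ ∈ fx (dualRep (lin (acRep φ)))
      (UN (CoxeterMatrix.B 2).toCoxeterSystem (isCartan 2) (WittModel.X (modelSU hK hN3 W))) := by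
    rw [mem_fx_dual]
    intro u hu x
    have h1 : LinearMap.ker (ψ.comp (lin (acRep φ) u) - ψ) = ⊤ := by
      refine hspan' _ fun g => ?_
      rw [LinearMap.mem_ker, LinearMap.sub_apply, sub_eq_zero, LinearMap.comp_apply, ← rho_mul, hψ, hψ, hcf, hcf,
        hleft u hu]
    rw [LinearMap.ker_eq_top, sub_eq_zero] at h1
    exact DFunLike.congr_fun h1 x
  have hψ0 : ψ ≠ 0 := by
    intro h
    have h3 := hψ 1
    rw [h, hcf, dl_one, map_one J', LinearMap.zero_apply] at h3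
    exact zero_ne_one h3
  have hflU : fl q z0 ∈ fx (dualRep (lin (acRep φ)))
      (UN (CoxeterMatrix.B 2).toCoxeterSystem (isCartan 2) (WittModel.X (modelSU hK hN3 W))) := by
    rw [mem_fx_dual]
    intro u hu x
    exact fl_fix (φ := φ) (by rw [hφ]; exact hU) (hzfix _ (inv_mem hu)) x
  obtain ⟨l0, hl0⟩ := fx_dual_unique R hirr hT hψU hψ0 hflU
  have hl00 : l0 ≠ 0 := by
    rintro rfl
    rw [zero_smul] at hl0
    obtain ⟨i, hi⟩ : ∃ i, z0 i ≠ 0 := by
      by_contra hcon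
      push Not at hcon
      have h1 : z0 = 0 := funext hcon
      apply hw0
      have h2 : (φ n0⁻¹ : Matrix _ _ F) *ᵥ z0 = w := by
        rw [hz0, ← hmv, inv_mul_cancel, map_one, Units.val_one, Matrix.one_mulVec]
      rw [← h2, h1, Matrix.mulVec_zero]
    have h1 := fl_al (q := q) z0 (Pi.single i 1)
    rw [hl0, LinearMap.zero_apply] at h1
    have h2 : hermForm 10 F q (Pi.single i 1) z0 = z0 i ^ q := by
      unfold hermForm
      rw [Finset.sum_eq_single i]
      · rw [Pi.single_eq_same, one_mul]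
      · intro b _ hb
        rw [Pi.single_eq_of_ne hb, zero_mul]
      · intro h; exact absurd (Finset.mem_univ _) h
    rw [h2] at h1
    exact pow_ne_zero q hi ((map_eq_zero _).1 h1.symm)
  have hmain : ∀ g : SU 5 F q, algebraMap F (AlgebraicClosure F) (hermForm 10 F q ((φ g : Matrix _ _ F) *ᵥ w) z0) =
      μ * l0 * J' (dl W 1 g) := by
    intro g
    rw [← fl_al, ← lin_al, ← hμ, map_smul, map_smul, hl0, LinearMap.smul_apply, hψ, hcf, smul_eq_mul, smul_eq_mul]
    ring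
  refine ⟨W.e 0, W.e 1, W.f 0, W.f 1, φ, w, AlgebraicClosure F, inferInstance, algebraMap F _, J',
    μ * l0 * J' (c⁻¹ ^ q), RGD.Sup (WittModel.X (modelSU hK hN3 W))
      (RGD.Pos (CoxeterMatrix.B 2).toCoxeterSystem (isCartan 2)), hφ, ?_⟩
  exact {
    ee := by
      rintro x (rfl | rfl) y (rfl | rfl)
      all_goals exact W.ee _ _
    ff := by
      rintro x (rfl | rfl) y (rfl | rfl)
      all_goals exact W.ff _ _
    ef00 := (W.ef 0 0).trans (if_pos rfl)
    ef11 := (W.ef 1 1).trans (if_pos rfl)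
    ef01 := (W.ef 0 1).trans (if_neg (by decide))
    ef10 := (W.ef 1 0).trans (if_neg (by decide))
    w0 := hw0
    κ0 := mul_ne_zero (mul_ne_zero hμ0 hl00) ((map_ne_zero J').2 (pow_ne_zero _ (inv_ne_zero hc)))
    ker := by
      intro g g'
      have h1 := hmain (n0 * g'⁻¹ * g)
      have e1 : dl W 1 (n0 * g'⁻¹ * g) =
          c⁻¹ ^ q * G2 q (act g (W.e 0)) (act g (W.e 1)) (act g' (W.e 0)) (act g' (W.e 1)) := by
        rw [show n0 * g'⁻¹ * g = (g' * n0⁻¹)⁻¹ * g by group, hD, hfe0, hfe1, inv_mul_cancel_right, G2_smul_right]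
      have e2 : hermForm 10 F q ((φ (n0 * g'⁻¹ * g) : Matrix (Fin 10) (Fin 10) F) *ᵥ w) z0 =
          hermForm 10 F q ((φ g : Matrix (Fin 10) (Fin 10) F) *ᵥ w) ((φ g' : Matrix (Fin 10) (Fin 10) F) *ᵥ w) := by
        have e3 : n0 * g'⁻¹ * g = n0 * (g'⁻¹ * g) := by group
        rw [e3, hmv, hz0, gu_herm (hUG n0), ← gu_herm (hUG g'), ← hmv, mul_inv_cancel_left]
      rw [e2, e1, map_mul J'] at h1
      rw [h1]
      ring
    fixU := hw
    maxU := ⟨R.isPGroup_Upos, fun P hP h1 => KFacts.RgdEx.eq_U R h1 (by rw [hG]; exact le_top) hP⟩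
    tor := by
      intro x hx
      rcases hW with h | ⟨d, hd, hV⟩
      · exact absurd h hV0
      obtain ⟨t, ht, h3⟩ := exists_t1 hN3 W hm0 hd hV hx
      have hB : t ∈ RGD.B (CoxeterMatrix.B 2).toCoxeterSystem (isCartan 2) (WittModel.T (modelSU hK hN3 W))
          (WittModel.X (modelSU hK hN3 W)) := R.mem_B.2 ⟨t, ht, 1, one_mem _, (mul_one t).symm⟩
      rw [← KFacts.RgdAut.normalizer_U' R hG] at hB
      refine ⟨t, fun u hu => (Subgroup.mem_normalizer_iff.1 hB u).1 hu, ?_⟩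
      obtain ⟨i, hi⟩ : ∃ i, w i ≠ 0 := by
        by_contra hcon
        push Not at hcon
        exact hw0 (funext hcon)
      have h4 := hlinw t x (fun g => by rw [dl_mul_T hN3 ht, h3, mul_comm])
      have h5 : ∀ l, algebraMap F (AlgebraicClosure F) (((φ t : Matrix (Fin 10) (Fin 10) F) *ᵥ w) l) =
          J' x * algebraMap F (AlgebraicClosure F) (w l) := fun l => congrFun h4 l
      have h6 : algebraMap F (AlgebraicClosure F) (((φ t : Matrix (Fin 10) (Fin 10) F) *ᵥ w) i / w i) = J' x := by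
        rw [map_div₀, h5, mul_div_assoc, div_self ((map_ne_zero _).2 hi), mul_one]
      refine ⟨_, h6, ?_⟩
      funext l
      apply (algebraMap F (AlgebraicClosure F)).injective
      rw [h5, Pi.smul_apply, smul_eq_mul, map_mul, h6]
    frame := by
      intro x0 x1 h00 h01 h11 hli
      have h10 : hermForm 5 F q x1 x0 = 0 := by
        rw [herm_swap hK x0 x1, h01, zero_pow_q hK]
      obtain ⟨g, b, hb, h1⟩ := exists_su W (r := 2) le_rfl (by norm_num) (pfr_two (m := 2) le_rfl h00 h01 h10 h11 hli) true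
      refine ⟨g, b, hb, ?_, ?_⟩
      · have := h1 0 (by norm_num)
        rwa [if_pos (by simp)] at this
      · have := h1 1 (by norm_num)
        rwa [if_neg (by simp), one_smul] at this }

end main

end Cfsg.Agent.H587.UF
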