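import Cfsg.Agent.H587.UF.Mod

/-!
# `f₀ ∧ f₁ + C e₀ ∧ e₁` is not decomposable (helper587)
-/

set_option autoImplicit false
set_option linter.unusedSectionVars false

namespace Cfsg.Agent.H587.UF

open Cfsg Cfsg.Geo
open LieClassical.HermBasic LieClassical.HermSiegel Cfsg.Agent.H61.SUCross
open scoped MatrixGroups Matrix

variable {F : Type} [Field F] [Fintype F] {q p : ℕ} {e0 e1 f0 f1 : Fin 5 → F} {φ : SU 5 F q →* GL (Fin 10) F}
  {w : Fin 10 → F} {k : Type} [Field k] {al J : F →+* k} {κ : k} {U : Subgroup (SU 5 F q)}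

namespace Dt

variable (D : Dt q p e0 e1 f0 f1 φ w al J κ U) (hK : Fintype.card F = q ^ 2)
include D hK

theorem fe00 : hermForm 5 F q f0 e0 = 1 := by rw [herm_swap hK e0 f0, D.ef00, one_pow]
theorem fe11 : hermForm 5 F q f1 e1 = 1 := by rw [herm_swap hK e1 f1, D.ef11, one_pow]
theorem fe01 : hermForm 5 F q f0 e1 = 0 := by rw [herm_swap hK e1 f0, D.ef10, zero_pow_q hK]
theorem fe10 : hermForm 5 F q f1 e0 = 0 := by rw [herm_swap hK e0 f1, D.ef01, zero_pow_q hK]

omit hK in
theorem ee' : hermForm 5 F q e0 e0 = 0 ∧ hermForm 5 F q e0 e1 = 0 ∧ hermForm 5 F q e1 e0 = 0 ∧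
    hermForm 5 F q e1 e1 = 0 :=
  ⟨D.ee _ (Or.inl rfl) _ (Or.inl rfl), D.ee _ (Or.inl rfl) _ (Or.inr rfl), D.ee _ (Or.inr rfl) _ (Or.inl rfl),
    D.ee _ (Or.inr rfl) _ (Or.inr rfl)⟩

omit hK in
theorem ff' : hermForm 5 F q f0 f0 = 0 ∧ hermForm 5 F q f0 f1 = 0 ∧ hermForm 5 F q f1 f0 = 0 ∧
    hermForm 5 F q f1 f1 = 0 :=
  ⟨D.ff _ (Or.inl rfl) _ (Or.inl rfl), D.ff _ (Or.inl rfl) _ (Or.inr rfl), D.ff _ (Or.inr rfl) _ (Or.inl rfl),
    D.ff _ (Or.inr rfl) _ (Or.inr rfl)⟩

/-- `f₀ ∧ f₁ + C e₀ ∧ e₁` is not in the orbit. -/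
theorem no_plane {n0 z : SU 5 F q} {c l C : F} (hc : c ≠ 0) (h0 : act n0 e0 = c • f0) (h1 : act n0 e1 = f1)
    (hC : C ≠ 0) (h : (φ n0 : Matrix (Fin 10) (Fin 10) F) *ᵥ w + C • w =
      l • ((φ z : Matrix (Fin 10) (Fin 10) F) *ᵥ w)) : False := by
  obtain ⟨ee00, ee01, ee10, ee11⟩ := D.ee'
  obtain ⟨ff00, ff01, ff10, ff11⟩ := D.ff'
  have fe00 := D.fe00 hK
  have fe11 := D.fe11 hK
  have fe01 := D.fe01 hK
  have fe10 := D.fe10 hK
  have ef00 := D.ef00
  have ef11 := D.ef11
  have ef01 := D.ef01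
  have ef10 := D.ef10
  -- the basic relation
  have key : ∀ g : SU 5 F q, al (l ^ q) * J (G2 q (act g e0) (act g e1) (act z e0) (act z e1)) =
      J (c ^ q) * J (G2 q (act g e0) (act g e1) f0 f1) + al (C ^ q) * J (G2 q (act g e0) (act g e1) e0 e1) := by
    intro g
    have e1' := congrArg (fun x => al (hermForm 10 F q ((φ g : Matrix (Fin 10) (Fin 10) F) *ᵥ w) x)) h
    simp only [herm_add_right hK, herm_smul_right, map_add, map_mul] at e1'
    have e2 := D.ker g 1
    rw [map_one, Units.val_one, Matrix.one_mulVec, act_one, act_one] at e2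
    rw [D.ker, D.ker, e2, h0, h1, G2_smul_right, map_mul] at e1'
    apply mul_left_cancel₀ D.κ0
    linear_combination -e1'
  set pp : (Fin 5 → F) → (Fin 5 → F) → F := fun x y => G2 q x y (act z e0) (act z e1) with hpp
  have key2 : ∀ x0 x1 : Fin 5 → F, hermForm 5 F q x0 x0 = 0 → hermForm 5 F q x0 x1 = 0 → hermForm 5 F q x1 x1 = 0 →
      (∀ a b : F, a • x0 + b • x1 = 0 → a = 0 ∧ b = 0) → al (l ^ q) * J (pp x0 x1) =
      J (c ^ q) * J (G2 q x0 x1 f0 f1) + al (C ^ q) * J (G2 q x0 x1 e0 e1) := by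
    intro x0 x1 h00 h01 h11 hli
    obtain ⟨g, b, hb, hg0, hg1⟩ := D.frame x0 x1 h00 h01 h11 hli
    have h2 := key g
    rw [hg0, hg1, G2_smul, G2_smul, G2_smul, map_mul, map_mul, map_mul] at h2
    apply mul_left_cancel₀ ((map_ne_zero J).2 hb)
    linear_combination h2
  have hE : J (c ^ q) ≠ 0 := (map_ne_zero J).2 (pow_ne_zero _ hc)
  have hE' : al (C ^ q) ≠ 0 := (map_ne_zero al).2 (pow_ne_zero _ hC)
  -- `e0, e1`
  have k1 := key2 e0 e1 ee00 ee01 ee11 (by
    intro a b hab
    have h2 := congrArg (fun x => hermForm 5 F q x f0) hab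
    have h3 := congrArg (fun x => hermForm 5 F q x f1) hab
    simp only [herm_add_left, herm_smul_left, herm_zero_left, ef00, ef10, ef01, ef11] at h2 h3
    exact ⟨by linear_combination h2, by linear_combination h3⟩)
  have k2 := key2 f0 f1 ff00 ff01 ff11 (by
    intro a b hab
    have h2 := congrArg (fun x => hermForm 5 F q x e0) hab
    have h3 := congrArg (fun x => hermForm 5 F q x e1) hab
    simp only [herm_add_left, herm_smul_left, herm_zero_left, fe00, fe10, fe01, fe11] at h2 h3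
    exact ⟨by linear_combination h2, by linear_combination h3⟩)
  have k3 := key2 e0 f1 ee00 ef01 ff11 (by
    intro a b hab
    have h2 := congrArg (fun x => hermForm 5 F q x f0) hab
    have h3 := congrArg (fun x => hermForm 5 F q x e1) hab
    simp only [herm_add_left, herm_smul_left, herm_zero_left, ef00, ff10, ee01, fe11] at h2 h3
    exact ⟨by linear_combination h2, by linear_combination h3⟩)
  have k4 := key2 e1 f0 ee11 ef10 ff00 (by
    intro a b hab
    have h2 := congrArg (fun x => hermForm 5 F q x f1) hab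
    have h3 := congrArg (fun x => hermForm 5 F q x e0) hab
    simp only [herm_add_left, herm_smul_left, herm_zero_left, ef11, ff01, ee10, fe00] at h2 h3
    exact ⟨by linear_combination h2, by linear_combination h3⟩)
  have k5 : ∀ a : F, al (l ^ q) * J (pp (e0 + a • e1) (f1 + (-(a ^ q)) • f0)) = 0 := by
    intro a
    have hneg : (-(a ^ q)) ^ q = -a := by rw [neg_pow_q hK, pow_q_pow_q hK]
    have h2 := key2 (e0 + a • e1) (f1 + (-(a ^ q)) • f0) (by
        simp only [herm_add_left, herm_smul_left, herm_add_right hK, herm_smul_right, ee00, ee01, ee10, ee11]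
        ring) (by
        simp only [herm_add_left, herm_smul_left, herm_add_right hK, herm_smul_right, ef00, ef01, ef10, ef11, hneg]
        ring) (by
        simp only [herm_add_left, herm_smul_left, herm_add_right hK, herm_smul_right, ff00, ff01, ff10, ff11]
        ring) (by
        intro x y hxy
        have h2 := congrArg (fun x => hermForm 5 F q x f0) hxy
        have h3 := congrArg (fun x => hermForm 5 F q x e1) hxy
        simp only [herm_add_left, herm_smul_left, herm_zero_left, ef00, ef10, ff00, ff10, ee01, ee11, fe11, fe01]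
          at h2 h3
        exact ⟨by linear_combination h2, by linear_combination h3⟩)
    rw [h2]
    have e1' : G2 q (e0 + a • e1) (f1 + (-(a ^ q)) • f0) f0 f1 = 0 := by
      unfold G2
      simp only [herm_add_left, herm_smul_left, ef00, ef01, ef10, ef11, ff00, ff01, ff10, ff11]
      ring
    have e2' : G2 q (e0 + a • e1) (f1 + (-(a ^ q)) • f0) e0 e1 = 0 := by
      unfold G2
      simp only [herm_add_left, herm_smul_left, ee00, ee01, ee10, ee11]
      ring
    rw [e1', e2', map_zero, mul_zero, mul_zero, add_zero]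
  have g1 : G2 q e0 e1 f0 f1 = 1 := by unfold G2; rw [ef00, ef11, ef01, ef10]; ring
  have g2 : G2 q e0 e1 e0 e1 = 0 := by unfold G2; rw [ee00, ee11, ee01, ee10]; ring
  have g3 : G2 q f0 f1 f0 f1 = 0 := by unfold G2; rw [ff00, ff11, ff01, ff10]; ring
  have g4 : G2 q f0 f1 e0 e1 = 1 := by unfold G2; rw [fe00, fe11, fe01, fe10]; ring
  have g5 : G2 q e0 f1 f0 f1 = 0 := by unfold G2; rw [ef00, ff11, ef01, ff10]; ring
  have g6 : G2 q e0 f1 e0 e1 = 0 := by unfold G2; rw [ee00, fe11, ee01, fe10]; ring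
  have g7 : G2 q e1 f0 f0 f1 = 0 := by unfold G2; rw [ef10, ff01, ef11, ff00]; ring
  have g8 : G2 q e1 f0 e0 e1 = 0 := by unfold G2; rw [ee10, fe01, ee11, fe00]; ring
  rw [g1, g2, map_one, map_zero, mul_one, mul_zero, add_zero] at k1
  rw [g3, g4, map_one, map_zero, mul_one, mul_zero, zero_add] at k2
  rw [g5, g6, map_zero, mul_zero, mul_zero, add_zero] at k3
  rw [g7, g8, map_zero, mul_zero, mul_zero, add_zero] at k4
  have hL : al (l ^ q) ≠ 0 := by
    intro h2
    rw [h2, zero_mul] at k1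
    exact hE k1.symm
  have p01 : pp e0 e1 ≠ 0 := by
    intro h2
    rw [h2, map_zero, mul_zero] at k1
    exact hE k1.symm
  have p23 : pp f0 f1 ≠ 0 := by
    intro h2
    rw [h2, map_zero, mul_zero] at k2
    exact hE' k2.symm
  have p03 : pp e0 f1 = 0 := (map_eq_zero J).1 ((mul_eq_zero.1 k3).resolve_left hL)
  have p12 : pp e1 f0 = 0 := (map_eq_zero J).1 ((mul_eq_zero.1 k4).resolve_left hL)
  have k6 : ∀ a : F, a * pp e1 f1 = a ^ q * pp e0 f0 := by
    intro a
    have h2 := (map_eq_zero J).1 ((mul_eq_zero.1 (k5 a)).resolve_left hL)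
    have h3 : pp (e0 + a • e1) (f1 + (-(a ^ q)) • f0) = pp e0 f1 - a ^ q * pp e0 f0 + a * pp e1 f1 -
        a * a ^ q * pp e1 f0 := by
      simp only [hpp, G2, herm_add_left, herm_smul_left]
      ring
    rw [h3, p03, p12] at h2
    linear_combination h2
  obtain ⟨a, ha⟩ := exists_not_fixed hK
  have k7 := k6 1
  have k8 := k6 a
  rw [one_pow, one_mul, one_mul] at k7
  rw [k7] at k8
  have p02 : pp e0 f0 = 0 := by
    have h2 : (a - a ^ q) * pp e0 f0 = 0 := by linear_combination k8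
    rcases mul_eq_zero.1 h2 with h3 | h3
    · exact absurd (sub_eq_zero.1 h3).symm ha
    · exact h3
  have pl : pp e0 e1 * pp f0 f1 = pp e0 f0 * pp e1 f1 - pp e0 f1 * pp e1 f0 := by
    simp only [hpp, G2]
    ring
  rw [p02, p03, zero_mul, zero_mul, sub_zero] at pl
  rcases mul_eq_zero.1 pl with h2 | h2
  · exact p01 h2
  · exact p23 h2

end Dt

end Cfsg.Agent.H587.UF
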