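import Cfsg.Agent.H587.UF.Tv
import Cfsg.Agent.KFacts.RgdFiltClass

/-!
# `U_5(q) < U_10(q)`, `q ≥ 3` (helper587)
-/

set_option autoImplicit false
set_option linter.unusedSectionVars false
set_option linter.style.haveILetI false

namespace Cfsg.Agent.H587.UF

open Cfsg Cfsg.Geo Cfsg.Agent.H284 Cfsg.Agent.H419.EP Cfsg.Agent.H833.TenFive
open LieClassical.HermBasic LieClassical.HermSiegel Cfsg.Agent.H61.SUCross
open Cfsg.Agent.H915.LD (core_of_residual)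
open scoped MatrixGroups Matrix

variable {F : Type} [Field F] [Fintype F] {q : ℕ}

theorem exists_pow_ne (hK : Fintype.card F = q ^ 2) (hq : 3 ≤ q) : ∃ x : F, x ≠ 0 ∧ x ^ (q + 1) ≠ 1 := by
  obtain ⟨g, hg⟩ := IsCyclic.exists_generator (α := Fˣ)
  refine ⟨g, Units.ne_zero g, fun h => ?_⟩
  have h1 : g ^ (q + 1) = 1 := by
    ext
    push_cast
    exact h
  have h2 := Nat.le_of_dvd (by omega) (orderOf_dvd_of_pow_eq_one h1)
  rw [orderOf_eq_card_of_forall_mem_zpowers hg, Nat.card_units, Nat.card_eq_fintype_card, hK] at h2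
  have h3 : 3 * q ≤ q ^ 2 := by nlinarith
  omega

/-- the socle of `A` as the image of `SU_5(q)` -/
theorem exists_socle {Q : Type*} [Group Q] [Finite Q] {A : Subgroup Q}
    (m : Model Q (GU 10 F q ⊓ specialLinear (Fin 10) F)) {P : Subgroup (GL (Fin 10) F)}
    (hP : IsResidualCore (m.hat A) P) {φ : SU 5 F q →* GL (Fin 10) F} (hφ : φ.range = P) :
    ∃ (N : Subgroup Q) (f : SU 5 F q →* N), Function.Surjective f ∧
      (∀ (g : SU 5 F q) (hx : φ g ∈ GU 10 F q ⊓ specialLinear (Fin 10) F), (f g : Q) = m.π ⟨φ g, hx⟩) ∧ N ≤ A ∧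
      (∀ a ∈ A, ∀ n ∈ N, a * n * a⁻¹ ∈ N) ∧ (∀ a ∈ A, (∀ n ∈ N, a * n = n * a) → a = 1) ∧
      Nonempty (N ≃* (P ⧸ (Cfsg.Geo.scalars (Fin 10) F).subgroupOf P)) := by
  obtain ⟨N, f, hfs, hf, hNA, hNn, hNC, he⟩ := exists_N m hP
  let φ' : SU 5 F q →* P := φ.codRestrict P (fun g => by rw [← hφ]; exact ⟨g, rfl⟩)
  refine ⟨N, f.comp φ', hfs.comp ?_, fun g hx => hf (φ' g) hx, hNA, hNn, hNC, he⟩
  rintro ⟨x, hx⟩
  have hx' := hx
  rw [← hφ] at hx'
  obtain ⟨g, rfl⟩ := hx'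
  exact ⟨g, rfl⟩

theorem herm_ww {p : ℕ} {e0 e1 f0 f1 : Fin 5 → F} {φ : SU 5 F q →* GL (Fin 10) F}
    {w : Fin 10 → F} {k : Type} [Field k] {al J : F →+* k} {κ : k} {U : Subgroup (SU 5 F q)}
    (D : Dt q p e0 e1 f0 f1 φ w al J κ U) : hermForm 10 F q w w = 0 := by
  obtain ⟨ee00, ee01, ee10, ee11⟩ := D.ee'
  have h1 := D.ker 1 1
  have h2 : G2 q e0 e1 e0 e1 = 0 := by unfold G2; rw [ee00, ee11, ee01, ee10]; ring
  rw [map_one, Units.val_one, Matrix.one_mulVec, act_one, act_one, h2, map_zero, mul_zero] at h1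
  exact (map_eq_zero al).1 h1

theorem nonab {Q : Type*} [Group Q] {N : Subgroup Q} {P : Subgroup (GL (Fin 10) F)} {A' : Subgroup (GL (Fin 10) F)}
    (hP : IsResidualCore A' P) (e : N ≃* (P ⧸ (Cfsg.Geo.scalars (Fin 10) F).subgroupOf P)) :
    ∃ a b : N, a * b ≠ b * a := by
  by_contra hcon
  push Not at hcon
  apply hP.nonabelian
  refine ⟨⟨fun a b => ?_⟩⟩
  apply e.symm.injective
  rw [map_mul, map_mul]
  exact hcon _ _

/-- **The case `q ≥ 3`.** -/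
theorem not_three {Q : Type*} [Group Q] [Finite Q] {A : Subgroup Q} {Γ : Subgroup (MulAut Q)} (h : EPT A Γ)
    (hK : Fintype.card F = q ^ 2) (hq : 3 ≤ q) (m : Model Q (GU 10 F q ⊓ specialLinear (Fin 10) F))
    {P : Subgroup (GL (Fin 10) F)} (hP : IsResidualCore (m.hat A) P)
    (e : (P ⧸ (Cfsg.Geo.scalars (Fin 10) F).subgroupOf P) ≃* PSU 5 F q) : False := by
  obtain ⟨p, hp⟩ := CharP.exists F
  haveI : Fact p.Prime := ⟨CharP.char_is_prime F p⟩
  have hC := core_of_residual hP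
  have hPS : P ≤ GU 10 F q ⊓ specialLinear (Fin 10) F := hP.le.trans (m.hat_le A)
  have hGU : P ≤ GU 10 F q := hPS.trans inf_le_left
  obtain ⟨e0, e1, f0, f1, φ, w, k, _, al, J, κ, U, hφ, D⟩ := exists_dt hK hC e hGU p
  obtain ⟨N, f, hfs, hf, hNA, hNn, hNC, ⟨e'⟩⟩ := exists_socle m hP hφ
  have hNs : IsSimpleGroup N := by
    haveI := hP.simple
    exact e'.isSimpleGroup
  have hNΓ := inv_of_soc h hNA hNn hNC hNs
  haveI : Finite (PSU 5 F q) := Quotient.finite _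
  have hfilt : KFacts.RgdFilt.HasFilt p N :=
    (KFacts.RgdFiltClass.hasFilt_PSU hK (by norm_num) (p := p)).of_equiv (e'.trans e).symm
  have hmem : ∀ g, φ g ∈ GU 10 F q ⊓ specialLinear (Fin 10) F := fun g => hPS (by rw [← hφ]; exact ⟨g, rfl⟩)
  have hw := herm_ww D
  obtain ⟨δ, hδ, hδ0⟩ := exists_delta hK
  obtain ⟨t, ht, htx⟩ := exists_tv hK hw hδ
  have htA : t ∉ m.hat A := D.tv_not_mem hK hφ hGU hP.normal hδ0 htx
  have hx : m.π ⟨t, ht⟩ ∉ A := fun hx => htA ((m.mem_hat_iff ⟨t, ht⟩).2 hx)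
  have hMP : MaxP p (U.map f) := by
    obtain ⟨S, hS⟩ := D.maxU.exists_sylow
    have := maxP_of_sylow (S.mapSurjective hfs)
    rwa [Sylow.coe_mapSurjective, hS] at this
  obtain ⟨x, hx0, hx1⟩ := exists_pow_ne hK hq
  obtain ⟨t', ht', a, ha, hta⟩ := D.tor x hx0
  have hg := normalizer_le_cj h hNs hNA hNΓ hfilt (nonab hP e') hMP hx (g := f t') ?_ ?_
  · -- the contradiction
    rw [mem_cj] at hg
    have h1 : (m.π ⟨t, ht⟩)⁻¹ * (f t' : Q) * m.π ⟨t, ht⟩ * ((f t' : Q))⁻¹ ∈ A :=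
      A.mul_mem hg (A.inv_mem (hNA (f t').2))
    rw [hf t' (hmem t'), ← map_inv, ← map_inv, ← map_mul, ← map_mul, ← map_mul, ← m.mem_hat_iff] at h1
    refine D.tv_not_mem hK hφ hGU hP.normal (c := δ * (a ^ (q + 1) - 1)) ?_ ?_ h1
    · refine mul_ne_zero hδ0 ?_
      rw [sub_ne_zero]
      intro h2
      apply hx1
      apply J.injective
      rw [map_pow, ← ha, ← map_pow, h2, map_one, map_one]
    · intro y
      have hinv : ∀ y, ((t⁻¹ : GL (Fin 10) F) : Matrix (Fin 10) (Fin 10) F) *ᵥ y =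
          y + (-(δ * hermForm 10 F q y w)) • w := by
        intro y
        apply gl_inv_eq
        rw [htx, herm_add_left, herm_smul_left, hw, mul_zero, add_zero]
        module
      have hφi : hermForm 10 F q ((((φ t')⁻¹ : GL (Fin 10) F) : Matrix (Fin 10) (Fin 10) F) *ᵥ y) w =
          a ^ q * hermForm 10 F q y w := by
        rw [← gu_herm ((hmem t').1 : φ t' ∈ GU 10 F q), ← gl_mulVec, mul_inv_cancel, Units.val_one,
          Matrix.one_mulVec, hta, herm_smul_right]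
      change ((t⁻¹ * φ t' * t * (φ t')⁻¹ : GL (Fin 10) F) : Matrix (Fin 10) (Fin 10) F) *ᵥ y = _
      rw [gl_mulVec, gl_mulVec, gl_mulVec, htx, hφi, Matrix.mulVec_add, Matrix.mulVec_smul, hta, ← gl_mulVec (φ t'),
        mul_inv_cancel, Units.val_one, Matrix.one_mulVec, hinv, herm_add_left, herm_smul_left, herm_smul_left, hw]
      rw [pow_succ]
      module
  · -- `U ≤ A^x`
    rintro _ ⟨_, ⟨u, hu, rfl⟩, rfl⟩
    rw [mem_cj]
    have hcomm : (⟨t, ht⟩ : (GU 10 F q ⊓ specialLinear (Fin 10) F : Subgroup (GL (Fin 10) F)))⁻¹ * ⟨φ u, hmem u⟩ *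
        ⟨t, ht⟩ = ⟨φ u, hmem u⟩ := by
      rw [mul_assoc, inv_mul_eq_iff_eq_mul]
      apply Subtype.ext
      apply gl_ext
      intro y
      change ((φ u * t : GL (Fin 10) F) : Matrix (Fin 10) (Fin 10) F) *ᵥ y =
        ((t * φ u : GL (Fin 10) F) : Matrix (Fin 10) (Fin 10) F) *ᵥ y
      rw [gl_mulVec, gl_mulVec, htx, htx, Matrix.mulVec_add, Matrix.mulVec_smul, D.fixU u hu]
      congr 3
      have h1 := gu_herm ((hmem u).1 : φ u ∈ GU 10 F q) y w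
      rw [D.fixU u hu] at h1
      exact h1.symm
    change (m.π ⟨t, ht⟩)⁻¹ * (f u : Q) * m.π ⟨t, ht⟩ ∈ A
    rw [hf u (hmem u), ← map_inv, ← map_mul, ← map_mul, hcomm, ← hf u (hmem u)]
    exact hNA (f u).2
  · rintro _ ⟨u, hu, rfl⟩
    exact ⟨t' * u * t'⁻¹, ht' u hu, by rw [map_mul, map_mul, map_inv]⟩

end Cfsg.Agent.H587.UF
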