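import Cfsg.Agent.H587.UF.Plu
import Cfsg.Agent.H117.EP.ModelPSL
import Cfsg.Agent.H419.EP.Soc

/-!
# The transvections of the module of dimension 10 of `SU_5(q)` (helper587)

* `Dt.tv_not_mem` : no transvection with center `w` normalises `P`;
* `exists_N`, `inv_of_soc` : the socle of `A`;
* **`not_three`** : the case `q ≥ 3`.
-/

set_option autoImplicit false
set_option linter.unusedSectionVars false

namespace Cfsg.Agent.H587.UF

open Cfsg Cfsg.Geo Cfsg.Agent.H284 Cfsg.Agent.H419.EP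
open LieClassical.HermBasic LieClassical.HermSiegel Cfsg.Agent.H61.SUCross
open Cfsg.Agent.ClassicalGeometry.UnitTransv (rankOne rankOne_mulVec det_rankOne)
open scoped MatrixGroups Matrix

section tv

variable {F : Type} [Field F] [Fintype F] {q n : ℕ}

theorem exists_tv (hK : Fintype.card F = q ^ 2) {w : Fin n → F} (hw : hermForm n F q w w = 0) {c : F}
    (hc : c ^ q = -c) : ∃ t : GL (Fin n) F, t ∈ GU n F q ⊓ specialLinear (Fin n) F ∧
      ∀ x, (t : Matrix (Fin n) (Fin n) F) *ᵥ x = x + (c * hermForm n F q x w) • w := by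
  have hdet : (rankOne q (c • w) w).det = 1 := by
    rw [det_rankOne, herm_smul_left, hw, mul_zero, add_zero]
  set t : GL (Fin n) F := Matrix.SpecialLinearGroup.toGL ⟨rankOne q (c • w) w, hdet⟩ with htd
  have ht : ∀ x, (t : Matrix (Fin n) (Fin n) F) *ᵥ x = x + (c * hermForm n F q x w) • w := by
    intro x
    change rankOne q (c • w) w *ᵥ x = _
    rw [rankOne_mulVec, smul_smul, mul_comm]
  refine ⟨t, ⟨?_, ?_⟩, ht⟩
  · intro x y
    change hermForm n F q ((t : Matrix (Fin n) (Fin n) F) *ᵥ x) ((t : Matrix (Fin n) (Fin n) F) *ᵥ y) = _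
    rw [ht, ht]
    simp only [herm_add_left, herm_add_right hK, herm_smul_left, herm_smul_right, hw]
    rw [mul_pow, hc, herm_swap hK y w]
    ring
  · exact Cfsg.Agent.H117.EP.toGL_mem _

theorem gl_ext {s t : GL (Fin n) F} (h : ∀ x, (s : Matrix (Fin n) (Fin n) F) *ᵥ x = (t : Matrix (Fin n) (Fin n) F) *ᵥ x) :
    s = t := by
  apply Units.ext
  ext i j
  have := congrFun (h (Pi.single j 1)) i
  simpa using this

theorem gl_mulVec (s t : GL (Fin n) F) (x : Fin n → F) : ((s * t : GL (Fin n) F) : Matrix (Fin n) (Fin n) F) *ᵥ x =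
    (s : Matrix (Fin n) (Fin n) F) *ᵥ ((t : Matrix (Fin n) (Fin n) F) *ᵥ x) := by
  rw [Matrix.mulVec_mulVec, Units.val_mul]

theorem gl_inv_eq {s : GL (Fin n) F} {x y : Fin n → F} (h : (s : Matrix (Fin n) (Fin n) F) *ᵥ x = y) :
    ((s⁻¹ : GL (Fin n) F) : Matrix (Fin n) (Fin n) F) *ᵥ y = x := by
  rw [← h, ← gl_mulVec, inv_mul_cancel, Units.val_one, Matrix.one_mulVec]

end tv

section

variable {F : Type} [Field F] [Fintype F] {q p : ℕ} {e0 e1 f0 f1 : Fin 5 → F} {φ : SU 5 F q →* GL (Fin 10) F}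
  {w : Fin 10 → F} {k : Type} [Field k] {al J : F →+* k} {κ : k} {U : Subgroup (SU 5 F q)}

/-- the transvections with center `w` do not normalise `P` -/
theorem Dt.tv_not_mem (D : Dt q p e0 e1 f0 f1 φ w al J κ U) (hK : Fintype.card F = q ^ 2)
    {P A' : Subgroup (GL (Fin 10) F)} (hφ : φ.range = P) (hGU : P ≤ GU 10 F q)
    (hn : ∀ a ∈ A', ∀ x ∈ P, a * x * a⁻¹ ∈ P) {t : GL (Fin 10) F} {c : F} (hc : c ≠ 0)
    (htx : ∀ x, (t : Matrix (Fin 10) (Fin 10) F) *ᵥ x = x + (c * hermForm 10 F q x w) • w) : t ∉ A' := by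
  intro ht
  obtain ⟨ee00, ee01, ee10, ee11⟩ := D.ee'
  obtain ⟨ff00, ff01, ff10, ff11⟩ := D.ff'
  have fe00 := D.fe00 hK
  have fe11 := D.fe11 hK
  have fe01 := D.fe01 hK
  have fe10 := D.fe10 hK
  have ef00 := D.ef00
  have ef11 := D.ef11
  have ef01 := D.ef01
  have ef10 := D.ef10
  have hUG : ∀ g : SU 5 F q, φ g ∈ GU 10 F q := fun g => hGU (by rw [← hφ]; exact ⟨g, rfl⟩)
  obtain ⟨n0, c0, hc0, h00, h01⟩ := D.frame f0 f1 ff00 ff01 ff11 (by
    intro a b hab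
    have h2 := congrArg (fun x => hermForm 5 F q x e0) hab
    have h3 := congrArg (fun x => hermForm 5 F q x e1) hab
    simp only [herm_add_left, herm_smul_left, herm_zero_left, fe00, fe10, fe01, fe11] at h2 h3
    exact ⟨by linear_combination h2, by linear_combination h3⟩)
  obtain ⟨n1, c1, hc1, h10, h11⟩ := D.frame f0 e1 ff00 fe01 ee11 (by
    intro a b hab
    have h2 := congrArg (fun x => hermForm 5 F q x e0) hab
    have h3 := congrArg (fun x => hermForm 5 F q x f1) hab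
    simp only [herm_add_left, herm_smul_left, herm_zero_left, fe00, ee10, ff01, ef11] at h2 h3
    exact ⟨by linear_combination h2, by linear_combination h3⟩)
  have hP1 : t * φ n1 * t⁻¹ * (φ n1)⁻¹ ∈ P := by
    have h1 : φ n1 ∈ P := by rw [← hφ]; exact ⟨n1, rfl⟩
    exact P.mul_mem (hn t ht _ h1) (P.inv_mem h1)
  rw [← hφ] at hP1
  obtain ⟨z, hz⟩ := hP1
  set v := (φ n0 : Matrix (Fin 10) (Fin 10) F) *ᵥ w with hv
  -- `h(v, w)`
  have hvw : hermForm 10 F q v w ≠ 0 := by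
    intro h0
    have h1 := D.ker n0 1
    rw [map_one, Units.val_one, Matrix.one_mulVec, act_one, act_one, ← hv, h0, map_zero, h00, h01, G2_smul] at h1
    have h2 : G2 q f0 f1 e0 e1 = 1 := by unfold G2; rw [fe00, fe11, fe01, fe10]; ring
    rw [h2, mul_one] at h1
    exact mul_ne_zero D.κ0 ((map_ne_zero J).2 hc0) h1.symm
  -- `h(v, φ(n1) w) = 0`
  have hv1 : hermForm 10 F q v ((φ n1 : Matrix (Fin 10) (Fin 10) F) *ᵥ w) = 0 := by
    have h1 := D.ker n0 n1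
    have h2 : G2 q f0 f1 f0 e1 = 0 := by unfold G2; rw [ff00, fe11, fe01, ff10]; ring
    rw [h00, h01, h10, h11, G2_smul, G2_smul_right, h2, mul_zero, mul_zero, map_zero, mul_zero] at h1
    exact (map_eq_zero al).1 h1
  have hy : (t : Matrix (Fin 10) (Fin 10) F) *ᵥ (((φ n1)⁻¹ : GL (Fin 10) F) : Matrix (Fin 10) (Fin 10) F) *ᵥ v =
      (((φ n1)⁻¹ : GL (Fin 10) F) : Matrix (Fin 10) (Fin 10) F) *ᵥ v := by
    have h1 : hermForm 10 F q ((((φ n1)⁻¹ : GL (Fin 10) F) : Matrix (Fin 10) (Fin 10) F) *ᵥ v) w = 0 := by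
      rw [← gu_herm (hUG n1), ← gl_mulVec, mul_inv_cancel, Units.val_one, Matrix.one_mulVec, hv1]
    rw [htx, h1, mul_zero, zero_smul, add_zero]
  have hzv : (φ z : Matrix (Fin 10) (Fin 10) F) *ᵥ v = v + (c * hermForm 10 F q v w) • w := by
    rw [hz, gl_mulVec, gl_mulVec, gl_inv_eq hy, gl_mulVec, ← gl_mulVec (φ n1), mul_inv_cancel, Units.val_one,
      Matrix.one_mulVec, htx]
  refine D.no_plane hK (z := z * n0) (l := 1) (C := c * hermForm 10 F q v w) hc0 h00 h01 (mul_ne_zero hc hvw) ?_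
  rw [one_smul, map_mul, gl_mulVec, ← hv, hzv]

end

section soc

variable {Q : Type*} [Group Q] {A : Subgroup Q}

/-- the image of the core -/
theorem exists_N {ι : Type} [Fintype ι] [DecidableEq ι] {F : Type*}
    [Field F] {S : Subgroup (GL ι F)} (m : Model Q S) {P : Subgroup (GL ι F)}
    (hP : Cfsg.Geo.IsResidualCore (m.hat A) P) : ∃ (N : Subgroup Q) (f : P →* N), Function.Surjective f ∧
      (∀ (x : P) (hx : (x : GL ι F) ∈ S), (f x : Q) = m.π ⟨x, hx⟩) ∧ N ≤ A ∧ (∀ a ∈ A, ∀ n ∈ N, a * n * a⁻¹ ∈ N) ∧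
      (∀ a ∈ A, (∀ n ∈ N, a * n = n * a) → a = 1) ∧
      Nonempty (N ≃* (P ⧸ (Cfsg.Geo.scalars ι F).subgroupOf P)) := by
  have hPS : P ≤ S := hP.le.trans (m.hat_le A)
  let f : P →* Q := m.π.comp (Subgroup.inclusion hPS)
  have hf : ∀ p : P, f p = m.π ⟨p, hPS p.2⟩ := fun p => rfl
  have hker : f.ker = (Cfsg.Geo.scalars ι F).subgroupOf P := by
    ext p
    rw [MonoidHom.mem_ker, hf, m.ker]
    rfl
  refine ⟨f.range, f.rangeRestrict, f.rangeRestrict_surjective, fun x hx => hf x, ?_, ?_, ?_, ?_⟩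
  · rintro _ ⟨p, rfl⟩
    exact (m.mem_hat_iff ⟨p, hPS p.2⟩).1 (hP.le p.2)
  · rintro a ha _ ⟨p, rfl⟩
    obtain ⟨s, rfl⟩ := m.surj a
    have hs : (s : GL ι F) ∈ m.hat A := (m.mem_hat_iff s).2 ha
    refine ⟨⟨s * p * (s : GL ι F)⁻¹, hP.normal _ hs _ p.2⟩, ?_⟩
    rw [hf, hf, ← map_mul, ← map_inv, ← map_mul]
    rfl
  · intro a ha hc
    obtain ⟨s, rfl⟩ := m.surj a
    have hs : (s : GL ι F) ∈ m.hat A := (m.mem_hat_iff s).2 ha
    rw [m.ker]
    apply hP.centralizer_scalar _ hs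
    intro x hx
    have h1 := hc (f ⟨x, hx⟩) ⟨⟨x, hx⟩, rfl⟩
    have h2 : m.π (s * ⟨x, hPS hx⟩ * s⁻¹ * ⟨x, hPS hx⟩⁻¹) = 1 := by
      rw [map_mul, map_mul, map_mul, map_inv, map_inv]
      rw [hf] at h1
      rw [h1]
      group
    exact (m.ker _).1 h2
  · exact ⟨((QuotientGroup.quotientMulEquivOfEq hker).symm.trans (QuotientGroup.quotientKerEquivRange f)).symm⟩

/-- the socle is `Γ`-invariant -/
theorem inv_of_soc [Finite Q] {Γ : Subgroup (MulAut Q)} (h : EPT A Γ) {N : Subgroup Q} (hNA : N ≤ A)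
    (hN : ∀ a ∈ A, ∀ n ∈ N, a * n * a⁻¹ ∈ N) (hC : ∀ a ∈ A, (∀ n ∈ N, a * n = n * a) → a = 1)
    (hs : IsSimpleGroup N) : ∀ σ ∈ Γ, ∀ k ∈ N, σ k ∈ N := by
  intro σ hσ
  have h1 : ∀ k ∈ N.map σ.toMonoidHom, k ∈ A := by
    rintro _ ⟨k, hk, rfl⟩
    exact (h.inv σ hσ k).2 (hNA hk)
  have h2 : ∀ a ∈ A, ∀ k ∈ N.map σ.toMonoidHom, a * k * a⁻¹ ∈ N.map σ.toMonoidHom := by
    rintro a ha _ ⟨k, hk, rfl⟩
    have ha' : σ⁻¹ a ∈ A := (h.inv σ⁻¹ (Γ.inv_mem hσ) a).2 ha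
    refine ⟨σ⁻¹ a * k * (σ⁻¹ a)⁻¹, hN _ ha' k hk, ?_⟩
    change σ (σ⁻¹ a * k * (σ⁻¹ a)⁻¹) = a * σ k * a⁻¹
    rw [map_mul, map_mul, map_inv, MulAut.apply_inv_self]
  have h3 : ((N.map σ.toMonoidHom).subgroupOf N).Normal := ⟨fun k hk n => h2 n (hNA n.2) k hk⟩
  rcases hs.eq_bot_or_eq_top_of_normal _ h3 with h4 | h4
  · exfalso
    obtain ⟨a, b, hab⟩ := exists_pair_ne N
    apply hab
    have key : ∀ n : N, (n : Q) = 1 := by
      intro n
      have h5 : σ (n : Q) = 1 := by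
        apply hC _ (h1 _ ⟨n, n.2, rfl⟩)
        intro x hx
        have h6 : σ n * x * (σ n)⁻¹ * x⁻¹ ∈ N := N.mul_mem (hN _ (h1 _ ⟨n, n.2, rfl⟩) x hx) (N.inv_mem hx)
        have h7 : σ n * x * (σ n)⁻¹ * x⁻¹ ∈ N.map σ.toMonoidHom := by
          have e : σ n * x * (σ n)⁻¹ * x⁻¹ = σ n * (x * (σ n)⁻¹ * x⁻¹) := by group
          rw [e]
          exact (N.map σ.toMonoidHom).mul_mem ⟨n, n.2, rfl⟩
            (h2 x (hNA hx) _ ((N.map σ.toMonoidHom).inv_mem ⟨n, n.2, rfl⟩))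
        have h8 : (⟨_, h6⟩ : N) ∈ (N.map σ.toMonoidHom).subgroupOf N := h7
        rw [h4, Subgroup.mem_bot] at h8
        have h9 : σ n * x * (σ n)⁻¹ * x⁻¹ = 1 := congrArg Subtype.val h8
        rwa [mul_inv_eq_one, mul_inv_eq_iff_eq_mul] at h9
      exact (map_eq_one_iff σ σ.injective).1 h5
    exact Subtype.ext ((key a).trans (key b).symm)
  · intro k hk
    rw [Subgroup.subgroupOf_eq_top] at h4
    have h5 : N = N.map σ.toMonoidHom := Subgroup.eq_of_le_of_card_ge h4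
      (Nat.card_congr (N.equivMapOfInjective σ.toMonoidHom σ.injective).toEquiv).symm.le
    rw [h5]
    exact ⟨k, hk, rfl⟩

end soc

end Cfsg.Agent.H587.UF
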